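import Cfsg.Agent.H436.M23.Sec
import Cfsg.Agent.H266.M13.LAut
import Cfsg.Agent.S0248
import Cfsg.Agent.H345.K4.CentArg
import Cfsg.Agent.H853.ThC.Loc
import Cfsg.Agent.H994.M23.Norm
import Cfsg.Agent.H691.M23.Main
import Cfsg.Agent.H66.M23.Split

/-!
# (M,23) of S4929/S4928, piece [S13-f]: the section of `13A` (helper994)

`a` of order `13`, `C(a) = ⟨a⟩ × L`, `L ≅ SL(3, 3)`, `X` a real irreducible character, `f y = X (a y)` for `y` in `L`.
`Core` : helper599's theorem on such functions; `sec13` : the result.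
-/

set_option autoImplicit false
set_option linter.unusedSectionVars false
set_option linter.unusedVariables false

namespace Cfsg.Agent.H994.M23.Sec13f

open Cfsg Cfsg.Agent.H994.M23.Norm
open Cfsg.Agent.Characters Cfsg.Agent.Characters.Core
open Cfsg.Agent.Blocks.Basic Cfsg.Agent.Blocks.Local
open Cfsg.Agent.H691.M23 (RV)
open Cfsg.Agent.H924.M23 (N13)
open scoped ComplexConjugate

/-- helper599's theorem on functions on `SL(3, 3)` -/
def Core : Prop := ∀ {L : Type} [Group L] [Fintype L] (_ : L ≃* Matrix.SpecialLinearGroup (Fin 3) (ZMod 3))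
  (f : L → ℂ), (∀ x y, f (x * y * x⁻¹) = f y) →
  (∀ H : Subgroup L, ¬ 13 ∣ Nat.card H → ∃ m : ℤ, (∑ᶠ h : H, f h) = m * Nat.card H) →
  ∃ a1 a2 a3 b1 b2 b4 s : ℤ, f 1 = ((a1 + 11 * a2 + 16 * a3 + 13 * b1 + 26 * b2 + 26 * s + 39 * b4 : ℤ) : ℂ) ∧
    (∀ t, orderOf t = 2 → f t = ((a1 + 3 * a2 - 3 * b1 + 2 * b2 - 2 * s - b4 : ℤ) : ℂ)) ∧
    (N13 a1 a2 a3 : ℝ) / 13 + b1 ^ 2 + b2 ^ 2 + b4 ^ 2 + s ^ 2 / 2 ≤
      (∑ y : L with ¬ 13 ∣ orderOf y, ‖f y‖ ^ 2) / 5616 ∧
    ∀ w : ℤ, (∀ y, ∃ c : ℂ, IsIntegral ℤ c ∧ ∑ k : L with orderOf k = 2, f (y * k) = w * f y + 13 * c) →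
      (∃ z, orderOf z = 13 ∧ IsIntegral ℤ ((∑ j ∈ Finset.range 13, f (z ^ j)) / 13)) →
      13 ∣ w * a1 ∧ 13 ∣ w * a2 ∧ 13 ∣ w * a3 ∧ 13 ∣ (w + 1) * b1 ∧ 13 ∣ (w - 9) * b2 ∧ 13 ∣ (w + 3) * b4 ∧
        13 ∣ (w + 9) * s

section

variable {G : Type} [Group G] [Finite G] {a : G} {L : Subgroup G}

instance : Fact (Nat.Prime 13) := ⟨by norm_num⟩

/-- `L = C(a)'` -/
theorem eq_commutator (hS : Sp 13 a L) (hperf : commutator L = ⊤) :
    L = ⁅Subgroup.centralizer ({a} : Set G), Subgroup.centralizer ({a} : Set G)⁆ := by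
  apply le_antisymm
  · have h1 : L = ⁅L, L⁆ := by
      have h2 := Subgroup.map_subtype_commutator L
      rw [hperf, ← MonoidHom.range_eq_map, Subgroup.range_subtype] at h2
      exact h2
    calc L = ⁅L, L⁆ := h1
      _ ≤ _ := Subgroup.commutator_mono hS.le hS.le
  · rw [Subgroup.commutator_le]
    intro c hc c' hc'
    obtain ⟨i, l, hl, rfl⟩ := hS.split c hc
    obtain ⟨j, l', hl', rfl⟩ := hS.split c' hc'
    have h1 : Commute (a ^ i) l := (hS.comm hl).pow_left i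
    have h2 : Commute (a ^ i) l' := (hS.comm hl').pow_left i
    have h3 : Commute (a ^ j) l := (hS.comm hl).pow_left j
    have h4 : Commute (a ^ j) l' := (hS.comm hl').pow_left j
    have h5 : Commute (a ^ i) (a ^ j) := (Commute.refl a).pow_pow i j
    have e : (a ^ i * l) * (a ^ j * l') * (a ^ i * l)⁻¹ * (a ^ j * l')⁻¹ = l * l' * l⁻¹ * l'⁻¹ := by
      rw [mul_inv_rev, mul_inv_rev]
      have e1 : a ^ i * l * (a ^ j * l') * (l⁻¹ * (a ^ i)⁻¹) * (l'⁻¹ * (a ^ j)⁻¹) =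
          a ^ i * (l * a ^ j) * l' * l⁻¹ * ((a ^ i)⁻¹ * l'⁻¹) * (a ^ j)⁻¹ := by group
      rw [e1, ← h3.eq, (h2.inv_inv).eq]
      have e2 : a ^ i * (a ^ j * l) * l' * l⁻¹ * (l'⁻¹ * (a ^ i)⁻¹) * (a ^ j)⁻¹ =
          (a ^ i * a ^ j) * (l * l' * l⁻¹ * l'⁻¹) * ((a ^ j) * (a ^ i))⁻¹ := by group
      rw [e2, ← h5.eq]
      have h6 : Commute (a ^ i * a ^ j) (l * l' * l⁻¹ * l'⁻¹) := by
        have h7 : Commute (a ^ i) (l * l' * l⁻¹ * l'⁻¹) :=
          ((h1.mul_right h2).mul_right h1.inv_right).mul_right h2.inv_right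
        have h8 : Commute (a ^ j) (l * l' * l⁻¹ * l'⁻¹) :=
          ((h3.mul_right h4).mul_right h3.inv_right).mul_right h4.inv_right
        exact h7.mul_left h8
      rw [h6.eq, mul_assoc, mul_inv_cancel, mul_one]
    change (a ^ i * l) * (a ^ j * l') * (a ^ i * l)⁻¹ * (a ^ j * l')⁻¹ ∈ L
    rw [e]
    exact L.mul_mem (L.mul_mem (L.mul_mem hl hl') (L.inv_mem hl)) (L.inv_mem hl')

theorem perfect (e : L ≃* Matrix.SpecialLinearGroup (Fin 3) (ZMod 3)) : commutator L = ⊤ := by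
  have h := Cfsg.Agent.S0248.result (F := ZMod 3) 3 le_rfl
  rw [_root_.commutator_def] at h ⊢
  have h1 := congrArg (Subgroup.map e.symm.toMonoidHom) h
  rw [Subgroup.map_commutator, ← MonoidHom.range_eq_map, MonoidHom.range_eq_top.2 e.symm.surjective] at h1
  exact h1

theorem toRat (hS : Sp 13 a L) (e : L ≃* Matrix.SpecialLinearGroup (Fin 3) (ZMod 3))
    (hrat : ∀ k : ℕ, ¬ 13 ∣ k → IsConj a (a ^ k)) :
    Cfsg.Agent.H436.M23.Sec.Rat 13 a (Subgroup.centralizer ({a} : Set G)) L where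
  ord := hS.ord
  cent := rfl
  le := hS.le
  card := hS.card
  notMem := by
    intro h
    have h1 : a ∈ Subgroup.zpowers a ⊓ L := ⟨Subgroup.mem_zpowers a, h⟩
    rw [disjoint_iff.1 hS.disj, Subgroup.mem_bot] at h1
    have h2 := hS.ord
    rw [h1, orderOf_one] at h2
    norm_num at h2
  pows := fun k hk => isConj_iff.1 (hrat k hk)
  norm := by
    intro g hg t ht
    have h1 : g * a * g⁻¹ ∈ Subgroup.zpowers a := by
      rw [Subgroup.mem_normalizer_iff] at hg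
      exact (hg a).1 (Subgroup.mem_zpowers a)
    obtain ⟨k, hk⟩ := Subgroup.mem_zpowers_iff.1 h1
    exact Cfsg.Agent.H66.M23.Split.conj_mem_T hk.symm (by norm_num) hS.ord (eq_commutator hS (perfect e)) t ht

/-! ### the permutation characters -/

theorem ext_one {H : Subgroup L} (g : L) : extendByZero H (fun _ => (1 : ℂ)) g⁻¹ = extendByZero H (fun _ => (1 : ℂ)) g := by
  by_cases h : g ∈ H
  · rw [Brauer.extendByZero_mem H _ h, Brauer.extendByZero_mem H _ (H.inv_mem h)]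
  · rw [Brauer.extendByZero_notMem H _ h, Brauer.extendByZero_notMem H _ (fun h1 => h (by
      have := H.inv_mem h1
      rwa [inv_inv] at this))]

theorem ind_inv [Fintype L] (H : Subgroup L) (y : L) :
    indFun H (fun _ => (1 : ℂ)) y⁻¹ = indFun H (fun _ => (1 : ℂ)) y := by
  rw [Brauer.indFun_apply, Brauer.indFun_apply]
  congr 1
  refine Finset.sum_congr rfl fun x _ => ?_
  have h1 : x⁻¹ * y⁻¹ * x = (x⁻¹ * y * x)⁻¹ := by group
  rw [h1, ext_one]

theorem ind_sing [Fintype L] {H : Subgroup L} (hH : ¬ 13 ∣ Nat.card H) {y : L} (hy : 13 ∣ orderOf y) :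
    indFun H (fun _ => (1 : ℂ)) y = 0 := by
  rw [Brauer.indFun_apply, Finset.sum_eq_zero, mul_zero]
  intro x _
  apply Brauer.extendByZero_notMem
  intro h1
  have h2 : orderOf (x⁻¹ * y * x) = orderOf y := by
    have := (MulAut.conj x⁻¹).orderOf_eq y
    rw [MulAut.conj_apply, inv_inv] at this
    exact this
  have h3 := Subgroup.orderOf_dvd_natCard H h1
  rw [h2] at h3
  exact hH (hy.trans h3)

theorem ind_aut [Fintype L] (e : L ≃* Matrix.SpecialLinearGroup (Fin 3) (ZMod 3)) {H : Subgroup L}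
    (hH : ¬ 13 ∣ Nat.card H) (σ : L ≃* L) (y : L) :
    indFun H (fun _ => (1 : ℂ)) (σ y) = indFun H (fun _ => (1 : ℂ)) y := by
  by_cases hy : 13 ∣ orderOf y
  · rw [ind_sing hH hy, ind_sing hH (by rwa [σ.orderOf_eq])]
  · have hcl := Brauer.indFun_isClassFunction H (fun _ => (1 : ℂ))
    rcases Cfsg.Agent.H266.M13.aut e σ hy with h | h
    · obtain ⟨c, hc⟩ := isConj_iff.1 h.symm
      rw [← hc, hcl]
    · obtain ⟨c, hc⟩ := isConj_iff.1 h.symm
      rw [← hc, hcl, ind_inv]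

/-- the averages of `f` over the `13'`-subgroups are integers -/
theorem exists_hint [Fintype L] (hS : Sp 13 a L) (e : L ≃* Matrix.SpecialLinearGroup (Fin 3) (ZMod 3))
    (hrat : ∀ k : ℕ, ¬ 13 ∣ k → IsConj a (a ^ k)) {X : G → ℂ} (hX : IsCharacter G X) (H : Subgroup L)
    (hH : ¬ 13 ∣ Nat.card H) : ∃ m : ℤ, (∑ᶠ h : H, X (a * ((h : L) : G))) = m * Nat.card H := by
  classical
  have : Fintype H := Fintype.ofFinite H
  obtain ⟨m, hm⟩ := Cfsg.Agent.H436.M23.Sec.exists_int (toRat hS e hrat)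
    (Brauer.isCharacter_indFun H (φ := fun _ => (1 : ℂ)) isCharacter_one) (ind_aut e hH) hX
  refine ⟨m, ?_⟩
  have hcl : IsClassFunction L (fun t : L => X (a * (t : G))) := by
    intro g h
    change X (a * ((h : G) * g * (h : G)⁻¹)) = X (a * g)
    have h1 : a * ((h : G) * g * (h : G)⁻¹) = (h : G) * (a * g) * (h : G)⁻¹ := by
      have := (hS.comm h.2).eq
      rw [← mul_assoc, ← mul_assoc, this, mul_assoc (h : G) a]
    rw [h1, isCharacter_isClassFunction hX]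
  have h2 := Brauer.classInner_indFun H inferInstance (fun _ => (1 : ℂ)) (fun t : L => X (a * (t : G))) hcl
  have h3 : classInner (fun t : L => X (a * (t : G))) (indFun H (fun _ => (1 : ℂ))) =
      conj (classInner (indFun H (fun _ => (1 : ℂ))) (fun t : L => X (a * (t : G)))) := by
    rw [Core.classInner_def, Core.classInner_def, map_mul, map_inv₀, map_natCast, map_sum]
    congr 1
    refine Finset.sum_congr rfl fun g _ => ?_
    rw [map_mul, Complex.conj_conj, mul_comm]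
  rw [h3, h2, Core.classInner_def, map_mul, map_inv₀, map_natCast, map_sum] at hm
  have h4 : ∑ h : H, conj ((1 : ℂ) * conj (X (a * ((h : L) : G)))) = ∑ h : H, X (a * ((h : L) : G)) :=
    Finset.sum_congr rfl fun h _ => by rw [one_mul, Complex.conj_conj]
  rw [h4] at hm
  rw [finsum_eq_sum_of_fintype, ← hm]
  have h5 : (Nat.card H : ℂ) ≠ 0 := Nat.cast_ne_zero.2 Nat.card_pos.ne'
  field_simp

/-! ### the class sum of `t` -/

/-- `∑_{c ~ t} X (c g)`, `g` commuting with `x` of order `p` -/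
theorem orbit_sum {p : ℕ} [hp : Fact p.Prime] [Fintype G] {χ : G → ℂ} (hχ : IsIrrCharacter G χ) {z x g : G}
    (hx : orderOf x = p) (hg : x * g = g * x) (T : Finset G) (hT : ∀ c, c ∈ T ↔ IsConj z c ∧ c * x = x * c) :
    ∃ A : ℂ, IsIntegral ℤ A ∧ centralChar χ z * χ g = ∑ c ∈ T, χ (c * g) + (p : ℂ) * A := by
  classical
  rw [← Cfsg.Agent.H345.K4.CentArg.sum_class hχ]
  let f : G → AlgInt := fun c => if IsConj z c then ⟨χ (c * g), Cfsg.Agent.CharactersDeep.ModCongr.isIntegral_irr hχ _⟩ else 0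
  have hf : ∀ c, ((f c : AlgInt) : ℂ) = if IsConj z c then χ (c * g) else 0 := by
    intro c
    show ((if IsConj z c then (⟨χ (c * g), _⟩ : AlgInt) else 0 : AlgInt) : ℂ) = _
    split_ifs <;> rfl
  have hxp : IsPGroup p (Subgroup.zpowers x) := by
    refine IsPGroup.of_card (n := 1) ?_
    rw [Nat.card_zpowers, hx, pow_one]
  obtain ⟨a, ha⟩ := Blocks.OrbitSum.sum_eq_sum_centralizer_add_smul (Subgroup.zpowers x) hxp f (by
    intro u hu c
    have hug : u * g = g * u := by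
      obtain ⟨k, rfl⟩ := Subgroup.mem_zpowers_iff.1 hu
      exact ((show Commute x g from hg).zpow_left k)
    show (if IsConj z (u * c * u⁻¹) then (⟨χ (u * c * u⁻¹ * g), _⟩ : AlgInt) else 0) = _
    have h1 : IsConj z (u * c * u⁻¹) ↔ IsConj z c :=
      ⟨fun H => H.trans (isConj_iff.2 ⟨u, rfl⟩ : IsConj c (u * c * u⁻¹)).symm,
        fun H => H.trans (isConj_iff.2 ⟨u, rfl⟩)⟩
    have h2 : χ (u * c * u⁻¹ * g) = χ (c * g) := by
      have h3 : u * c * u⁻¹ * g = u * (c * g) * u⁻¹ := by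
        have h4 : u⁻¹ * g = g * u⁻¹ := by
          rw [inv_mul_eq_iff_eq_mul, ← mul_assoc, hug, mul_inv_cancel_right]
        rw [mul_assoc (u * c), h4]
        simp only [mul_assoc]
      rw [h3]
      exact isIrr_isClassFunction hχ _ _
    by_cases h : IsConj z c
    · rw [if_pos (h1.2 h)]
      show _ = (if IsConj z c then (⟨χ (c * g), _⟩ : AlgInt) else 0)
      rw [if_pos h]
      exact Subtype.ext h2
    · rw [if_neg (fun h' => h (h1.1 h'))]
      show _ = (if IsConj z c then (⟨χ (c * g), _⟩ : AlgInt) else 0)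
      rw [if_neg h])
  refine ⟨(a : ℂ), a.2, ?_⟩
  have h4 := congrArg (fun y : AlgInt => (y : ℂ)) ha
  simp only [AddMemClass.coe_add, AddSubmonoidClass.coe_finsetSum, nsmul_eq_mul] at h4
  rw [Finset.sum_congr rfl fun c _ => hf c] at h4
  have h5 : ∑ c : G, (open Classical in if IsConj z c then χ (c * g) else 0) =
      ∑ c : G, (if IsConj z c then χ (c * g) else 0) := by
    refine Finset.sum_congr rfl fun c _ => ?_
    congr
  rw [h5, h4]
  congr 1
  rw [Finset.sum_congr rfl fun c _ => hf c, ← Finset.sum_filter, Finset.filter_filter]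
  refine Finset.sum_congr ?_ fun _ _ => rfl
  ext c
  rw [Finset.mem_filter, hT, Subgroup.mem_centralizer_iff]
  refine ⟨fun h => ⟨h.2.2, ?_⟩, fun h => ⟨Finset.mem_univ _, ?_, h.1⟩⟩
  · exact (h.2.1 x (Subgroup.mem_zpowers x)).symm
  · intro u hu
    obtain ⟨k, rfl⟩ := Subgroup.mem_zpowers_iff.1 hu
    exact ((show Commute c x from h.2).zpow_right k).symm

/-- the sum over the involutions of `L` -/
theorem conv [Fintype L] (hS : Sp 13 a L) {t : G} (ht : orderOf t = 2)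
    (hinv : ∀ u : G, orderOf u = 2 → u * a = a * u → IsConj t u) {X : G → ℂ} (hX : IsIrrCharacter G X) {w : ℤ}
    (hw : centralChar X t = w) (y : L) : ∃ c : ℂ, IsIntegral ℤ c ∧
      ∑ k : L with orderOf k = 2, X (a * ((y * k : L) : G)) = w * X (a * (y : G)) + 13 * c := by
  classical
  have : Fintype G := Fintype.ofFinite G
  have hcy : Commute a (y : G) := hS.comm y.2
  obtain ⟨A, hA, hsum⟩ := orbit_sum (p := 13) hX (z := t) (x := a) (g := a * (y : G)) hS.ord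
    (by rw [mul_assoc a (y : G) a, ← hcy.eq])
    (Finset.image (fun k : L => (k : G)) (Finset.univ.filter fun k : L => orderOf k = 2)) (by
      intro c
      rw [Finset.mem_image]
      constructor
      · rintro ⟨k, hk, rfl⟩
        have hk2 : orderOf (k : G) = 2 := by rw [Subgroup.orderOf_coe]; exact (Finset.mem_filter.1 hk).2
        have hka : (k : G) * a = a * k := (hS.comm k.2).eq.symm
        exact ⟨hinv _ hk2 hka, hka⟩
      · rintro ⟨h1, h2⟩
        have hc2 : orderOf c = 2 := by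
          obtain ⟨g, rfl⟩ := isConj_iff.1 h1
          rw [← ht]
          exact (MulAut.conj g).orderOf_eq t
        have hcL : c ∈ L := hS.reg_mem (Subgroup.mem_centralizer_singleton_iff.2 h2) (by rw [hc2]; norm_num)
        exact ⟨⟨c, hcL⟩, Finset.mem_filter.2 ⟨Finset.mem_univ _, by rw [Subgroup.orderOf_mk, hc2]⟩, rfl⟩)
  refine ⟨-A, hA.neg, ?_⟩
  rw [Finset.sum_image (fun x _ y _ h => Subtype.ext h), hw] at hsum
  have h1 : ∑ k : L with orderOf k = 2, X (a * ((y * k : L) : G)) =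
      ∑ k : L with orderOf k = 2, X ((k : G) * (a * (y : G))) := by
    refine Finset.sum_congr rfl fun k _ => ?_
    have h2 : (k : G) * (a * (y : G)) = (k : G) * (a * ((y * k : L) : G)) * (k : G)⁻¹ := by
      push_cast
      group
    rw [h2, isIrr_isClassFunction hX]
  rw [h1]
  push_cast at hsum ⊢
  linear_combination -hsum

/-- averages over the subgroups of order `13` of `L` -/
theorem avg (hS : Sp 13 a L) {X : G → ℂ} (hX : IsIrrCharacter G X) {z : L} (hz : orderOf z = 13) :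
    IsIntegral ℤ ((∑ j ∈ Finset.range 13, X (a * ((z ^ j : L) : G))) / 13) := by
  classical
  have : Fintype (Subgroup.zpowers (z : G)) := Fintype.ofFinite _
  have hz' : orderOf (z : G) = 13 := by rw [Subgroup.orderOf_coe, hz]
  have h := Cfsg.Agent.H853.ThC.isIntegral_avg (Brauer.isGeneralizedCharacter_of_isCharacter (isIrr_isCharacter hX))
    (Subgroup.zpowers (z : G)) a (by
      intro r hr
      obtain ⟨k, rfl⟩ := Subgroup.mem_zpowers_iff.1 hr
      exact ((hS.comm z.2).symm).zpow_left k)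
  have h1 : ∑ j ∈ Finset.range 13, X (a * ((z ^ j : L) : G)) = ∑ r : Subgroup.zpowers (z : G), X ((r : G) * a) := by
    refine Finset.sum_bij (fun j _ => (⟨(z : G) ^ j, Subgroup.npow_mem_zpowers _ _⟩ : Subgroup.zpowers (z : G)))
      (fun j _ => Finset.mem_univ _) ?_ ?_ ?_
    · intro i hi j hj hij
      have h2 : (z : G) ^ i = (z : G) ^ j := congrArg Subtype.val hij
      rw [Finset.mem_range] at hi hj
      exact pow_injOn_Iio_orderOf (by rw [hz']; exact hi) (by rw [hz']; exact hj) h2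
    · intro r _
      obtain ⟨k, hk⟩ := (Submonoid.mem_powers_iff _ _).1 ((mem_powers_iff_mem_zpowers).2 r.2)
      refine ⟨k % 13, Finset.mem_range.2 (Nat.mod_lt _ (by norm_num)), Subtype.ext ?_⟩
      change (z : G) ^ (k % 13) = r
      rw [← hk, ← hz', pow_mod_orderOf]
    · intro j _
      change X (a * ((z ^ j : L) : G)) = X ((z : G) ^ j * a)
      have h2 : Commute a ((z : G) ^ j) := (hS.comm z.2).pow_right j
      rw [← h2.eq, Subgroup.coe_pow]
  rw [h1, div_eq_inv_mul]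
  rw [Nat.card_zpowers, hz'] at h
  exact_mod_cast h

theorem exists_w {X : G → ℂ} (hX : IsIrrCharacter G X) {t : G} {d b : ℤ} (hd : X 1 = d) (hb : X t = b) :
    ∃ w : ℤ, centralChar X t = w := by
  have hd0 : (d : ℂ) ≠ 0 := by rw [← hd]; exact isIrr_apply_one_ne_zero hX
  have hd0' : d ≠ 0 := by exact_mod_cast hd0
  refine Cfsg.Agent.H691.M23.exists_int_of (b := d)
    (a := ((Subgroup.centralizer ({t} : Set G)).index : ℤ) * b) hd0' ?_ ?_
  · unfold centralChar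
    rw [hd, hb, div_mul_cancel₀ _ hd0]
    push_cast
    ring
  · have : Fintype G := Fintype.ofFinite G
    exact Blocks.Central.isIntegral_centralChar hX t

end

/-! ### arithmetic -/

theorem three_N (a b c : ℤ) : 3 * N13 a b c = (3 * c + a - 2 * b) ^ 2 + 26 * (a ^ 2 - a * b + b ^ 2) := by
  unfold N13
  ring

theorem N_nonneg (a b c : ℤ) : 0 ≤ N13 a b c := by
  have h := three_N a b c
  nlinarith [sq_nonneg (3 * c + a - 2 * b), sq_nonneg (a - b), sq_nonneg a, sq_nonneg b]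

theorem N_zero {a b c : ℤ} (h : N13 a b c ≤ 1) : a = 0 ∧ b = 0 ∧ c = 0 := by
  have h1 := three_N a b c
  have h2 : a ^ 2 - a * b + b ^ 2 ≤ 0 := by
    nlinarith [sq_nonneg (3 * c + a - 2 * b)]
  have h3 : a = 0 := by nlinarith [sq_nonneg (a - 2 * b), sq_nonneg a]
  have h4 : b = 0 := by
    rw [h3] at h2
    nlinarith [sq_nonneg b]
  refine ⟨h3, h4, ?_⟩
  rw [h3, h4] at h1 h
  have h5 : 9 * c ^ 2 ≤ 3 := by nlinarith
  by_contra hc
  have h6 : 0 < c ^ 2 := by positivity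
  linarith

theorem N_mul (a b c : ℤ) : N13 (13 * a) (13 * b) (13 * c) = 169 * N13 a b c := by
  unfold N13
  ring

theorem dvd_of {z u : ℤ} (h : 13 ∣ z * u) (hu : u ^ 2 ≤ 26) (h0 : u ≠ 0) : 13 ∣ z := by
  have hp : Prime (13 : ℤ) := by norm_num
  rcases hp.dvd_or_dvd h with h1 | h1
  · exact h1
  · exfalso
    obtain ⟨v, rfl⟩ := h1
    have : v ≠ 0 := by
      rintro rfl
      exact h0 rfl
    have h2 : 1 ≤ v ^ 2 := by
      have := sq_pos_of_ne_zero this
      omega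
    nlinarith

/-- **[S13-f]** -/
theorem sec13 (HC : Core) {G : Type} [Group G] [Fintype G] {a t : G} {L : Subgroup G} (hS : Sp 13 a L)
    (e : L ≃* Matrix.SpecialLinearGroup (Fin 3) (ZMod 3)) (hrat : ∀ k : ℕ, ¬ 13 ∣ k → IsConj a (a ^ k))
    (ht : orderOf t = 2) (hinv : ∀ u : G, orderOf u = 2 → u * a = a * u → IsConj t u)
    (X : IrrCharacter G) {d b : ℤ} (hd : (X : G → ℂ) 1 = d) (hb : (X : G → ℂ) t = b) :
    ∃ x n : ℤ, (X : G → ℂ) a = x ∧
      ((∃ a₁ a₂ a₃ : ℤ, x = a₁ + 11 * a₂ + 16 * a₃ ∧ (13 : ℤ) ∣ b - (a₁ + 3 * a₂) ∧ n = N13 a₁ a₂ a₃) ∨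
        (∃ k : ℤ, x = 13 * k ∧ (13 : ℤ) ∣ b + 3 * k ∧ n = 13 * k ^ 2) ∨
        (∃ k : ℤ, x = 26 * k ∧ (13 : ℤ) ∣ b - 2 * k ∧ n = 13 * k ^ 2) ∨
        (∃ k : ℤ, x = 39 * k ∧ (13 : ℤ) ∣ b + k ∧ n = 13 * k ^ 2) ∨
        (∃ s : ℤ, x = 26 * s ∧ (13 : ℤ) ∣ b + 2 * s ∧ n = 6 * s ^ 2)) ∧
      n * (Nat.card G : ℝ) ≤ 169 * sm (fun g => ‖(X : G → ℂ) g‖ ^ 2) (Sc 13 a) := by
  classical
  have hL : Fintype L := Fintype.ofFinite L
  have hXi : IsIrrCharacter G (X : G → ℂ) := X.2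
  have hcL : Nat.card L = 5616 := Cfsg.Agent.H266.M13.card_L e
  have hcl : ∀ x y : L, (X : G → ℂ) (a * ((x * y * x⁻¹ : L) : G)) = (X : G → ℂ) (a * (y : G)) := by
    intro x y
    have h1 : a * ((x * y * x⁻¹ : L) : G) = (x : G) * (a * y) * (x : G)⁻¹ := by
      have := (hS.comm x.2).eq
      push_cast
      rw [← mul_assoc, ← mul_assoc, this, mul_assoc (x : G) a]
    rw [h1, isIrr_isClassFunction hXi]
  obtain ⟨a1, a2, a3, b1, b2, b4, s, hf1, hft, hn, hcong⟩ := HC e (fun y : L => (X : G → ℂ) (a * (y : G))) hcl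
    (fun H hH => exists_hint hS e hrat (isIrr_isCharacter hXi) H hH)
  obtain ⟨w, hw⟩ := exists_w hXi hd hb
  obtain ⟨z, hz⟩ : ∃ z : L, orderOf z = 13 :=
    exists_prime_orderOf_dvd_card' 13 (by rw [hcL]; norm_num)
  obtain ⟨c1, c2, c3, c4, c5, c6, c7⟩ := hcong w (fun y => conv hS ht hinv hXi hw y) ⟨z, hz, avg hS hXi hz⟩
  -- the value at an involution
  obtain ⟨k, hk⟩ : ∃ k : L, orderOf k = 2 := by
    have : Fact (Nat.Prime 2) := ⟨Nat.prime_two⟩
    exact exists_prime_orderOf_dvd_card' 2 (by rw [hcL]; norm_num)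
  have hkG : orderOf (k : G) = 2 := by rw [Subgroup.orderOf_coe, hk]
  have hXk : (X : G → ℂ) (k : G) = b := by
    obtain ⟨g, hg⟩ := isConj_iff.1 (hinv k hkG (hS.comm k.2).eq.symm)
    rw [← hg, isIrr_isClassFunction hXi, hb]
  obtain ⟨M, hM⟩ := Cfsg.Agent.Blocks.ExistsModular.exists_isPModular (p := 13) (by norm_num)
  have hbF : (13 : ℤ) ∣ (a1 + 3 * a2 - 3 * b1 + 2 * b2 - 2 * s - b4) - b := by
    have h1 := Cfsg.Agent.CharactersDeep.ModCongr.memLocalIdeal_character_sub hM hXi (a * (k : G)) a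
      (hS.ppart k.2 (by rw [hkG]; norm_num))
    have h2 : (X : G → ℂ) (a * (k : G)) = _ := hft k hk
    rw [inv_mul_cancel_left, hXk, h2] at h1
    have h3 := (memLocalIdeal_intCast_iff hM (n := (a1 + 3 * a2 - 3 * b1 + 2 * b2 - 2 * s - b4) - b)).1 (by
      push_cast at h1 ⊢
      exact h1)
    exact_mod_cast h3
  -- the norm
  have hpos : (0 : ℝ) < Nat.card G := Nat.cast_pos.2 Nat.card_pos
  have hss := section_sum hS (w := fun g => ‖(X : G → ℂ) g‖ ^ 2) (conj_sq hXi)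
  rw [sm_eq (fun t : L => ‖(X : G → ℂ) (a * t)‖ ^ 2), hcL] at hss
  have hle : sm (fun g => ‖(X : G → ℂ) g‖ ^ 2) (Sc 13 a) ≤ Nat.card G := by
    have h1 : sm (fun g => ‖(X : G → ℂ) g‖ ^ 2) (Sc 13 a) ≤ sm (fun g => ‖(X : G → ℂ) g‖ ^ 2) (fun _ => True) :=
      sm_mono (fun _ _ => trivial) (fun _ _ => le_refl _) (fun _ => by positivity)
    have h2 : sm (fun g => ‖(X : G → ℂ) g‖ ^ 2) (fun _ => True) = Nat.card G := by
      rw [sm_eq, Finset.filter_true, sum_sq hXi]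
    rw [h2] at h1
    exact h1
  obtain ⟨N, hN⟩ : ∃ N : ℝ, N = Nat.card G := ⟨_, rfl⟩
  obtain ⟨S, hSd⟩ : ∃ S : ℝ, S = sm (fun g => ‖(X : G → ℂ) g‖ ^ 2) (Sc 13 a) := ⟨_, rfl⟩
  obtain ⟨Q, hQ⟩ : ∃ Q : ℝ, Q = ∑ y : L with ¬ 13 ∣ orderOf y, ‖(X : G → ℂ) (a * (y : G))‖ ^ 2 := ⟨_, rfl⟩
  rw [← hQ] at hn hss
  rw [← hSd, ← hN] at hle hss
  rw [← hSd, ← hN]
  rw [← hN] at hpos
  have hQS : Q * N = 13 * 5616 * S := by
    push_cast at hss
    linarith
  have key : ∀ n : ℤ, (n : ℝ) ≤ 13 * ((N13 a1 a2 a3 : ℝ) / 13 + b1 ^ 2 + b2 ^ 2 + b4 ^ 2 + s ^ 2 / 2) →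
      (n : ℝ) * N ≤ 169 * S := by
    intro n hn'
    have h1 : (n : ℝ) ≤ 13 * (Q / 5616) := hn'.trans (by linarith)
    have h2 : (n : ℝ) * N ≤ 13 * (Q / 5616) * N := mul_le_mul_of_nonneg_right h1 hpos.le
    have h3 : 13 * (Q / 5616) * N = 169 * S := by
      have : 13 * (Q / 5616) * N = 13 * (Q * N) / 5616 := by ring
      rw [this, hQS]
      ring
    rwa [h3] at h2
  have hbound : (N13 a1 a2 a3 : ℝ) / 13 + b1 ^ 2 + b2 ^ 2 + b4 ^ 2 + s ^ 2 / 2 ≤ 13 := by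
    refine hn.trans ?_
    rw [div_le_iff₀ (by norm_num)]
    have h1 : Q * N ≤ 13 * 5616 * N := by
      rw [hQS]
      exact mul_le_mul_of_nonneg_left hle (by norm_num)
    exact le_of_mul_le_mul_right h1 hpos
  have hN0 : (0 : ℝ) ≤ N13 a1 a2 a3 := by exact_mod_cast N_nonneg a1 a2 a3
  have hb1 : b1 ^ 2 ≤ 26 := by
    have : (b1 : ℝ) ^ 2 ≤ 26 := by nlinarith [sq_nonneg (b2 : ℝ), sq_nonneg (b4 : ℝ), sq_nonneg (s : ℝ)]
    exact_mod_cast this
  have hb2 : b2 ^ 2 ≤ 26 := by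
    have : (b2 : ℝ) ^ 2 ≤ 26 := by nlinarith [sq_nonneg (b1 : ℝ), sq_nonneg (b4 : ℝ), sq_nonneg (s : ℝ)]
    exact_mod_cast this
  have hb4 : b4 ^ 2 ≤ 26 := by
    have : (b4 : ℝ) ^ 2 ≤ 26 := by nlinarith [sq_nonneg (b1 : ℝ), sq_nonneg (b2 : ℝ), sq_nonneg (s : ℝ)]
    exact_mod_cast this
  have hs : s ^ 2 ≤ 26 := by
    have : (s : ℝ) ^ 2 ≤ 26 := by nlinarith [sq_nonneg (b1 : ℝ), sq_nonneg (b2 : ℝ), sq_nonneg (b4 : ℝ)]
    exact_mod_cast this
  have hN169 : N13 a1 a2 a3 ≤ 169 := by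
    have : (N13 a1 a2 a3 : ℝ) ≤ 169 := by
      nlinarith [sq_nonneg (b1 : ℝ), sq_nonneg (b2 : ℝ), sq_nonneg (b4 : ℝ), sq_nonneg (s : ℝ)]
    exact_mod_cast this
  have hXa : (X : G → ℂ) a = ((a1 + 11 * a2 + 16 * a3 + 13 * b1 + 26 * b2 + 26 * s + 39 * b4 : ℤ) : ℂ) := by
    rw [← hf1]
    simp
  have e1 : b1 ≠ 0 → 13 ∣ w + 1 := fun h => dvd_of c4 hb1 h
  have e2 : b2 ≠ 0 → 13 ∣ w - 9 := fun h => dvd_of c5 hb2 h
  have e4 : b4 ≠ 0 → 13 ∣ w + 3 := fun h => dvd_of c6 hb4 h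
  have es : s ≠ 0 → 13 ∣ w + 9 := fun h => dvd_of c7 hs h
  by_cases hw13 : (13 : ℤ) ∣ w
  · -- the principal block
    have h1 : b1 = 0 := by
      by_contra h
      have := e1 h
      omega
    have h2 : b2 = 0 := by
      by_contra h
      have := e2 h
      omega
    have h4 : b4 = 0 := by
      by_contra h
      have := e4 h
      omega
    have h5 : s = 0 := by
      by_contra h
      have := es h
      omega
    subst h1 h2 h4 h5
    refine ⟨a1 + 11 * a2 + 16 * a3, N13 a1 a2 a3, ?_, Or.inl ⟨a1, a2, a3, rfl, ?_, rfl⟩, key _ ?_⟩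
    · rw [hXa]
      push_cast
      ring
    · omega
    · push_cast
      linarith
  · -- the other blocks
    have hp : Prime (13 : ℤ) := by norm_num
    obtain ⟨u1, hu1⟩ := (hp.dvd_or_dvd c1).resolve_left hw13
    obtain ⟨u2, hu2⟩ := (hp.dvd_or_dvd c2).resolve_left hw13
    obtain ⟨u3, hu3⟩ := (hp.dvd_or_dvd c3).resolve_left hw13
    have hN13 : N13 u1 u2 u3 ≤ 1 := by
      have h1 := N_mul u1 u2 u3
      rw [← hu1, ← hu2, ← hu3] at h1
      omega
    obtain ⟨rfl, rfl, rfl⟩ := N_zero hN13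
    rw [mul_zero] at hu1 hu2 hu3
    subst hu1 hu2 hu3
    have hNz : (N13 0 0 0 : ℤ) = 0 := by unfold N13; norm_num
    rw [hNz] at key
    have kill : ∀ {P : Prop}, (b1 ≠ 0 ∧ b2 ≠ 0) ∨ (b1 ≠ 0 ∧ b4 ≠ 0) ∨ (b1 ≠ 0 ∧ s ≠ 0) ∨ (b2 ≠ 0 ∧ b4 ≠ 0) ∨
        (b2 ≠ 0 ∧ s ≠ 0) ∨ (b4 ≠ 0 ∧ s ≠ 0) → P := by
      rintro P (⟨h, h'⟩ | ⟨h, h'⟩ | ⟨h, h'⟩ | ⟨h, h'⟩ | ⟨h, h'⟩ | ⟨h, h'⟩)
      · have := e1 h; have := e2 h'; omega
      · have := e1 h; have := e4 h'; omega
      · have := e1 h; have := es h'; omega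
      · have := e2 h; have := e4 h'; omega
      · have := e2 h; have := es h'; omega
      · have := e4 h; have := es h'; omega
    by_cases h1 : b1 = 0
    · by_cases h2 : b2 = 0
      · by_cases h4 : b4 = 0
        · subst h1 h2 h4
          refine ⟨26 * s, 6 * s ^ 2, ?_, Or.inr (Or.inr (Or.inr (Or.inr ⟨s, rfl, by omega, rfl⟩))), key _ ?_⟩
          · rw [hXa]; push_cast; ring
          · push_cast
            nlinarith [sq_nonneg (s : ℝ)]
        · have h5 : s = 0 := by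
            by_contra h5
            exact kill (Or.inr (Or.inr (Or.inr (Or.inr (Or.inr ⟨h4, h5⟩)))))
          subst h1 h2 h5
          refine ⟨39 * b4, 13 * b4 ^ 2, ?_, Or.inr (Or.inr (Or.inr (Or.inl ⟨b4, rfl, by omega, rfl⟩))), key _ ?_⟩
          · rw [hXa]; push_cast; ring
          · push_cast
            nlinarith [sq_nonneg (b4 : ℝ)]
      · have h4 : b4 = 0 := by
          by_contra h4
          exact kill (Or.inr (Or.inr (Or.inr (Or.inl ⟨h2, h4⟩))))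
        have h5 : s = 0 := by
          by_contra h5
          exact kill (Or.inr (Or.inr (Or.inr (Or.inr (Or.inl ⟨h2, h5⟩)))))
        subst h1 h4 h5
        refine ⟨26 * b2, 13 * b2 ^ 2, ?_, Or.inr (Or.inr (Or.inl ⟨b2, rfl, by omega, rfl⟩)), key _ ?_⟩
        · rw [hXa]; push_cast; ring
        · push_cast
          nlinarith [sq_nonneg (b2 : ℝ)]
    · have h2 : b2 = 0 := by
        by_contra h2
        exact kill (Or.inl ⟨h1, h2⟩)
      have h4 : b4 = 0 := by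
        by_contra h4
        exact kill (Or.inr (Or.inl ⟨h1, h4⟩))
      have h5 : s = 0 := by
        by_contra h5
        exact kill (Or.inr (Or.inr (Or.inl ⟨h1, h5⟩)))
      subst h2 h4 h5
      refine ⟨13 * b1, 13 * b1 ^ 2, ?_, Or.inr (Or.inl ⟨b1, rfl, by omega, rfl⟩), key _ ?_⟩
      · rw [hXa]; push_cast; ring
      · push_cast
        nlinarith [sq_nonneg (b1 : ℝ)]

end Cfsg.Agent.H994.M23.Sec13f
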